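import Mathlib

/-!
# S4816, layer (I): monomial groups with alternating block group generated by pure cycles (helper930)

`Mono H B A`: `ρ : H →* Perm B` and a cocycle `e : H → B → A` (the entry of `h` at the block `j`).
`main`: `H` perfect, `ρ.range` the alternating group of degree at least five, every proper normal subgroup in the kernel,
and there is a pure three-cycle: then in a suitable gauge all even permutations are pure elements of `H`, all entries lie in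
a subgroup `L`, and the kernel consists of all `f : B → L` with product in `L'`.
-/

set_option autoImplicit false
set_option linter.unusedSectionVars false

namespace Cfsg.Agent.H930.IP

open Equiv
open scoped commutatorElement

/-- a monomial cocycle: `e x j` is the entry of `x` from the block `j` to the block `ρ x j` -/
structure Mono (H B A : Type*) [Group H] [Group A] where
  ρ : H →* Perm B
  e : H → B → A
  mul : ∀ x y j, e (x * y) j = e x (ρ y j) * e y j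

namespace Mono

variable {H B A : Type*} [Group H] [Group A] (m : Mono H B A)

theorem e_one (j : B) : m.e 1 j = 1 := by
  have h := m.mul 1 1 j
  rw [mul_one, map_one, Perm.one_apply] at h
  exact (mul_eq_left.1 h.symm)

theorem ρ_inv_apply (x : H) (j : B) : m.ρ x⁻¹ (m.ρ x j) = j := by
  rw [map_inv]
  exact (m.ρ x).symm_apply_apply j

theorem ρ_apply_inv (x : H) (j : B) : m.ρ x (m.ρ x⁻¹ j) = j := by
  rw [map_inv]
  exact (m.ρ x).apply_symm_apply j

theorem e_inv (x : H) (j : B) : m.e x⁻¹ (m.ρ x j) = (m.e x j)⁻¹ := by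
  have h := m.mul x⁻¹ x j
  rw [inv_mul_cancel, e_one] at h
  exact (inv_eq_of_mul_eq_one_left h.symm).symm

theorem e_inv' (x : H) (j : B) : m.e x⁻¹ j = (m.e x (m.ρ x⁻¹ j))⁻¹ := by
  rw [← m.e_inv, ρ_apply_inv]

theorem e_conj (h x : H) (j : B) : m.e (h * x * h⁻¹) (m.ρ h j) = m.e h (m.ρ x j) * m.e x j * (m.e h j)⁻¹ := by
  rw [m.mul, m.mul, m.e_inv, m.ρ_inv_apply]

theorem ρ_conj (h x : H) (j : B) : m.ρ (h * x * h⁻¹) (m.ρ h j) = m.ρ h (m.ρ x j) := by
  rw [map_mul, map_mul, Perm.mul_apply, Perm.mul_apply, m.ρ_inv_apply]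

/-- change of gauge -/
def gauge (d : B → A) : Mono H B A where
  ρ := m.ρ
  e x j := (d (m.ρ x j))⁻¹ * m.e x j * d j
  mul x y j := by
    rw [m.mul, map_mul, Perm.mul_apply]
    group

@[simp] theorem gauge_ρ (d : B → A) : (m.gauge d).ρ = m.ρ := rfl

theorem gauge_e (d : B → A) (x : H) (j : B) : (m.gauge d).e x j = (d (m.ρ x j))⁻¹ * m.e x j * d j := rfl

/-- `c` is a pure three-cycle `i → j → k → i` -/
structure P3 (c : H) (i j k : B) : Prop where
  ij : i ≠ j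
  jk : j ≠ k
  ik : i ≠ k
  hi : m.ρ c i = j
  hj : m.ρ c j = k
  hk : m.ρ c k = i
  fix : ∀ l, l ≠ i → l ≠ j → l ≠ k → m.ρ c l = l ∧ m.e c l = 1
  one : m.e c k * m.e c j * m.e c i = 1

variable {m} {c h x : H} {i j k : B}

theorem P3.rot (hc : m.P3 c i j k) : m.P3 c j k i :=
  ⟨hc.jk, hc.ik.symm, hc.ij.symm, hc.hj, hc.hk, hc.hi, fun l h1 h2 h3 => hc.fix l h3 h1 h2, by
    have h1 := hc.one
    have h2 : m.e c j * m.e c i = (m.e c k)⁻¹ := (inv_eq_of_mul_eq_one_right (by rw [← mul_assoc]; exact h1)).symm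
    have h3 : m.e c i = (m.e c j)⁻¹ * (m.e c k)⁻¹ := by rw [← h2]; group
    rw [h3]
    group⟩

theorem P3.inv (hc : m.P3 c i j k) : m.P3 c⁻¹ j i k where
  ij := hc.ij.symm
  jk := hc.ik
  ik := hc.jk
  hi := by rw [← hc.hi, m.ρ_inv_apply]
  hj := by rw [← hc.hk, m.ρ_inv_apply]
  hk := by rw [← hc.hj, m.ρ_inv_apply]
  fix l h1 h2 h3 := by
    obtain ⟨h4, h5⟩ := hc.fix l h2 h1 h3
    constructor
    · nth_rewrite 1 [← h4]
      exact m.ρ_inv_apply c l
    · have h6 := m.e_inv c l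
      rw [h4, h5, inv_one] at h6
      exact h6
  one := by
    have e1 : m.e c⁻¹ k = (m.e c j)⁻¹ := by rw [← m.e_inv, hc.hj]
    have e2 : m.e c⁻¹ i = (m.e c k)⁻¹ := by rw [← m.e_inv, hc.hk]
    have e3 : m.e c⁻¹ j = (m.e c i)⁻¹ := by rw [← m.e_inv, hc.hi]
    have h1 := hc.rot.rot.one
    rw [e1, e2, e3, ← mul_inv_rev, ← mul_inv_rev, ← mul_assoc, inv_eq_one]
    have h2 := hc.rot.one
    exact h2

theorem P3.conj (hc : m.P3 c i j k) (h : H) : m.P3 (h * c * h⁻¹) (m.ρ h i) (m.ρ h j) (m.ρ h k) where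
  ij e := hc.ij ((m.ρ h).injective e)
  jk e := hc.jk ((m.ρ h).injective e)
  ik e := hc.ik ((m.ρ h).injective e)
  hi := by rw [m.ρ_conj, hc.hi]
  hj := by rw [m.ρ_conj, hc.hj]
  hk := by rw [m.ρ_conj, hc.hk]
  fix l h1 h2 h3 := by
    obtain ⟨l, rfl⟩ := (m.ρ h).surjective l
    obtain ⟨h4, h5⟩ := hc.fix l (fun e => h1 (by rw [e])) (fun e => h2 (by rw [e])) (fun e => h3 (by rw [e]))
    rw [m.ρ_conj, m.e_conj, h4, h5]
    exact ⟨rfl, by group⟩
  one := by
    rw [m.e_conj, m.e_conj, m.e_conj, hc.hi, hc.hj, hc.hk]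
    have h1 := hc.one
    calc m.e h i * m.e c k * (m.e h k)⁻¹ * (m.e h k * m.e c j * (m.e h j)⁻¹) * (m.e h j * m.e c i * (m.e h i)⁻¹)
        = m.e h i * (m.e c k * m.e c j * m.e c i) * (m.e h i)⁻¹ := by group
      _ = 1 := by rw [h1]; group

theorem P3.ρ_eq {c c' : H} (hc : m.P3 c i j k) (hc' : m.P3 c' i j k) : m.ρ c = m.ρ c' := by
  ext l
  by_cases h1 : l = i
  · rw [h1, hc.hi, hc'.hi]
  by_cases h2 : l = j
  · rw [h2, hc.hj, hc'.hj]
  by_cases h3 : l = k
  · rw [h3, hc.hk, hc'.hk]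
  rw [(hc.fix l h1 h2 h3).1, (hc'.fix l h1 h2 h3).1]

theorem P3.gauge (hc : m.P3 c i j k) (d : B → A) : (m.gauge d).P3 c i j k where
  ij := hc.ij
  jk := hc.jk
  ik := hc.ik
  hi := hc.hi
  hj := hc.hj
  hk := hc.hk
  fix l h1 h2 h3 := by
    obtain ⟨h4, h5⟩ := hc.fix l h1 h2 h3
    refine ⟨h4, ?_⟩
    rw [gauge_e, h4, h5]
    group
  one := by
    rw [gauge_e, gauge_e, gauge_e, hc.hi, hc.hj, hc.hk]
    have h1 := hc.one
    calc (d i)⁻¹ * m.e c k * d k * ((d k)⁻¹ * m.e c j * d j) * ((d j)⁻¹ * m.e c i * d i)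
        = (d i)⁻¹ * (m.e c k * m.e c j * m.e c i) * d i := by group
      _ = 1 := by rw [h1]; group

/-! ### Commutators -/

theorem e_ker_conj {g : H} (hg : m.ρ g = 1) (c : H) (l : B) :
    m.e (g * c * g⁻¹ * c⁻¹) (m.ρ c l) = m.e g (m.ρ c l) * m.e c l * (m.e g l)⁻¹ * (m.e c l)⁻¹ := by
  have hg' : m.ρ g⁻¹ = 1 := by rw [map_inv, hg, inv_one]
  have e1 : m.e g⁻¹ l = (m.e g l)⁻¹ := by
    have := m.e_inv g l
    rwa [hg, Perm.one_apply] at this
  rw [m.mul, m.mul, m.mul, m.e_inv, m.ρ_inv_apply, hg', Perm.one_apply, e1]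

theorem e_comm {g : H} (hg : m.ρ g = 1) (c : H) (l : B) :
    m.e (c⁻¹ * g * c * g⁻¹) l = (m.e c l)⁻¹ * m.e g (m.ρ c l) * m.e c l * (m.e g l)⁻¹ := by
  have hg' : m.ρ g⁻¹ = 1 := by rw [map_inv, hg, inv_one]
  have e1 : m.e g⁻¹ l = (m.e g l)⁻¹ := by
    have := m.e_inv g l
    rwa [hg, Perm.one_apply] at this
  rw [m.mul, m.mul, m.mul, hg', Perm.one_apply, e1, hg, Perm.one_apply, m.e_inv]

theorem ρ_comm {g : H} (hg : m.ρ g = 1) (c : H) : m.ρ (c⁻¹ * g * c * g⁻¹) = 1 := by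
  rw [map_mul, map_mul, map_mul, map_inv, map_inv, hg]
  group

theorem ρ_ker_conj {g : H} (hg : m.ρ g = 1) (c : H) : m.ρ (g * c * g⁻¹ * c⁻¹) = 1 := by
  rw [map_mul, map_mul, map_mul, map_inv, map_inv, hg]
  group

/-- **shift**: `g` in the kernel, trivial on `j`, `k` -/
theorem P3.shift (hc : m.P3 c i j k) {g : H} (hg : m.ρ g = 1) (hgj : m.e g j = 1) (hgk : m.e g k = 1) :
    ∃ z, m.ρ z = 1 ∧ m.e z i = m.e g i ∧ m.e z j = m.e c i * (m.e g i)⁻¹ * (m.e c i)⁻¹ ∧
      ∀ l, l ≠ i → l ≠ j → m.e z l = 1 := by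
  have key := fun l => e_ker_conj hg c l
  refine ⟨g * c * g⁻¹ * c⁻¹, ρ_ker_conj hg c, ?_, ?_, ?_⟩
  · have h1 := key k
    rw [hc.hk, hgk] at h1
    rw [h1]
    group
  · have h1 := key i
    rw [hc.hi, hgj, one_mul] at h1
    exact h1
  · intro l h1 h2
    by_cases h3 : l = k
    · have h4 := key j
      rw [hc.hj, hgj, hgk] at h4
      rw [h3, h4]
      group
    · have h4 := key l
      obtain ⟨h5, h6⟩ := hc.fix l h1 h2 h3
      rw [h5, h6] at h4
      rw [h4]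
      group

end Mono

/-! ### Fresh blocks -/

section fresh

variable {B : Type*} [Fintype B] [DecidableEq B]

theorem exists_fresh (h5 : 5 ≤ Fintype.card B) (a b c d : B) : ∃ q : B, q ≠ a ∧ q ≠ b ∧ q ≠ c ∧ q ≠ d := by
  by_contra hcon
  push Not at hcon
  have h1 : (Finset.univ : Finset B) ⊆ {a, b, c, d} := by
    intro q _
    simp only [Finset.mem_insert, Finset.mem_singleton]
    by_cases h1 : q = a
    · exact Or.inl h1
    by_cases h2 : q = b
    · exact Or.inr (Or.inl h2)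
    by_cases h3 : q = c
    · exact Or.inr (Or.inr (Or.inl h3))
    exact Or.inr (Or.inr (Or.inr (hcon q h1 h2 h3)))
  have h2 := Finset.card_le_card h1
  have h3 : ({a, b, c, d} : Finset B).card ≤ 4 := Finset.card_le_four
  rw [Finset.card_univ] at h2
  omega

/-- an even permutation moving three points to three points -/
theorem exists_even (h5 : 5 ≤ Fintype.card B) {i j k i' j' k' : B} (hij : i ≠ j) (hjk : j ≠ k) (hik : i ≠ k)
    (hij' : i' ≠ j') (hjk' : j' ≠ k') (hik' : i' ≠ k') :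
    ∃ σ : Perm B, Perm.sign σ = 1 ∧ σ i = i' ∧ σ j = j' ∧ σ k = k' := by
  have h1 : ∃ σ : Perm B, σ i = i' ∧ σ j = j' ∧ σ k = k' := by
    let τ : Perm B := swap i i'
    let τ2 : Perm B := swap (τ j) j'
    let τ3 : Perm B := swap (τ2 (τ k)) k'
    have e1 : τ i = i' := swap_apply_left _ _
    have e2 : τ2 i' = i' := by
      apply swap_apply_of_ne_of_ne
      · rw [← e1]; exact fun h => hij (τ.injective h)
      · exact hij'
    have e3 : τ2 (τ j) = j' := swap_apply_left _ _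
    have e4 : τ3 (τ2 (τ k)) = k' := swap_apply_left _ _
    have e5 : τ3 i' = i' := by
      apply swap_apply_of_ne_of_ne
      · nth_rewrite 1 [← e2, ← e1]
        exact fun h => hik (τ.injective (τ2.injective h))
      · exact hik'
    have e6 : τ3 j' = j' := by
      apply swap_apply_of_ne_of_ne
      · rw [← e3]
        exact fun h => hjk (τ.injective (τ2.injective h))
      · exact hjk'
    exact ⟨τ3 * τ2 * τ, by simp only [Perm.mul_apply]; rw [e1, e2, e5],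
      by simp only [Perm.mul_apply]; rw [e3, e6], by simp only [Perm.mul_apply]; exact e4⟩
  obtain ⟨σ, h2, h3, h4⟩ := h1
  rcases Int.units_eq_one_or (Perm.sign σ) with hs | hs
  · exact ⟨σ, hs, h2, h3, h4⟩
  · obtain ⟨u, hu1, hu2, hu3, -⟩ := exists_fresh h5 i' j' k' k'
    obtain ⟨v, hv1, hv2, hv3, hv4⟩ := exists_fresh h5 i' j' k' u
    refine ⟨swap u v * σ, ?_, ?_, ?_, ?_⟩
    · rw [map_mul, Perm.sign_swap hv4.symm, hs]; rfl
    · rw [Perm.mul_apply, h2, swap_apply_of_ne_of_ne hu1.symm hv1.symm]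
    · rw [Perm.mul_apply, h3, swap_apply_of_ne_of_ne hu2.symm hv2.symm]
    · rw [Perm.mul_apply, h4, swap_apply_of_ne_of_ne hu3.symm hv3.symm]

end fresh

namespace Mono

variable {H B A : Type*} [Group H] [Group A] {m : Mono H B A} [Fintype B] [DecidableEq B]

/-- all ordered triples carry a pure three-cycle -/
theorem exists_P3 (h5 : 5 ≤ Fintype.card B) (hA : alternatingGroup B ≤ m.ρ.range) {c : H} {i j k : B}
    (hc : m.P3 c i j k) {i' j' k' : B} (hij : i' ≠ j') (hjk : j' ≠ k') (hik : i' ≠ k') :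
    ∃ c', m.P3 c' i' j' k' := by
  obtain ⟨σ, hs, h1, h2, h3⟩ := exists_even h5 hc.ij hc.jk hc.ik hij hjk hik
  obtain ⟨h, hh⟩ := hA (Perm.mem_alternatingGroup.2 hs)
  have := hc.conj h
  rw [hh, h1, h2, h3] at this
  exact ⟨_, this⟩

/-- everything about the position: at least five blocks, the block group contains the alternating group, and there are
pure three-cycles -/
structure Pos (m : Mono H B A) : Prop where
  five : 5 ≤ Fintype.card B
  p3 : ∀ i j k, i ≠ j → j ≠ k → i ≠ k → ∃ c, m.P3 c i j k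

/-- a pure three-cycle `i → j → k` with `k` not in a given triple -/
theorem Pos.p3' (hm : m.Pos) {i j : B} (hij : i ≠ j) (a b : B) :
    ∃ c k, m.P3 c i j k ∧ k ≠ a ∧ k ≠ b := by
  obtain ⟨k, h1, h2, h3, h4⟩ := exists_fresh hm.five i j a b
  obtain ⟨c, hc⟩ := hm.p3 i j k hij h2.symm h1.symm
  exact ⟨c, k, hc, h3, h4⟩

/-- entries of the kernel elements supported on two blocks -/
def S (hm : m.Pos) (i : B) : Subgroup A where
  carrier := {a | ∃ k, m.ρ k = 1 ∧ m.e k i = a ∧ ∃ l, l ≠ i ∧ ∀ j, j ≠ i → j ≠ l → m.e k j = 1}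
  one_mem' := by
    obtain ⟨l, hl, -⟩ := exists_fresh hm.five i i i i
    exact ⟨1, map_one _, m.e_one i, l, hl, fun j _ _ => m.e_one j⟩
  mul_mem' := by
    rintro _ _ ⟨x, hx, rfl, l, hl, h1⟩ ⟨y, hy, rfl, l', hl', h2⟩
    -- the product is supported on `i, l, l'`
    obtain ⟨p, hp1, hp2, hp3, -⟩ := exists_fresh hm.five i l l' l'
    obtain ⟨q, hq1, hq2, hq3, hq4⟩ := exists_fresh hm.five i l l' p
    obtain ⟨c, hc⟩ := hm.p3 i p q hp1.symm hq4.symm hq1.symm
    obtain ⟨z, hz1, hz2, -, hz4⟩ := hc.shift (g := x * y) (by rw [map_mul, hx, hy, one_mul])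
      (by rw [m.mul, hy, Perm.one_apply, h1 _ hp1 hp2, h2 _ hp1 hp3, one_mul])
      (by rw [m.mul, hy, Perm.one_apply, h1 _ hq1 hq2, h2 _ hq1 hq3, one_mul])
    refine ⟨z, hz1, ?_, p, hp1, hz4⟩
    rw [hz2, m.mul, hy, Perm.one_apply]
  inv_mem' := by
    rintro _ ⟨x, hx, rfl, l, hl, h1⟩
    have hx' : ∀ j, m.e x⁻¹ j = (m.e x j)⁻¹ := fun j => by
      have := m.e_inv x j
      rwa [hx, Perm.one_apply] at this
    exact ⟨x⁻¹, by rw [map_inv, hx, inv_one], hx' i, l, hl, fun j h2 h3 => by rw [hx', h1 j h2 h3, inv_one]⟩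

/-- criterion: two trivial entries -/
theorem mem_S (hm : m.Pos) {g : H} (hg : m.ρ g = 1) {i p q : B} (hp : p ≠ i) (hq : q ≠ i) (hpq : p ≠ q)
    (h1 : m.e g p = 1) (h2 : m.e g q = 1) : m.e g i ∈ S hm i := by
  obtain ⟨c, hc⟩ := hm.p3 i p q hp.symm hpq hq.symm
  obtain ⟨z, hz1, hz2, -, hz4⟩ := hc.shift hg h1 h2
  exact ⟨z, hz1, hz2, p, hp, hz4⟩

/-- an element of `S i` is the entry of an element supported on `i, l` for any `l ≠ i` -/
theorem exists_z (hm : m.Pos) {c : H} {i l k : B} (hc : m.P3 c i l k) {a : A} (ha : a ∈ S hm i) :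
    ∃ z, m.ρ z = 1 ∧ m.e z i = a ∧ m.e z l = m.e c i * a⁻¹ * (m.e c i)⁻¹ ∧ ∀ j, j ≠ i → j ≠ l → m.e z j = 1 := by
  obtain ⟨x, hx, rfl, l', hl', h1⟩ := ha
  -- first move the support away from `l, k`
  have key : ∃ y, m.ρ y = 1 ∧ m.e y i = m.e x i ∧ m.e y l = 1 ∧ m.e y k = 1 := by
    obtain ⟨p, hp1, hp2, hp3, hp4⟩ := exists_fresh hm.five i l k l'
    obtain ⟨q, hq1, hq2, hq3, -⟩ := exists_fresh hm.five i l' p p
    obtain ⟨c', hc'⟩ := hm.p3 i p q hp1.symm hq3.symm hq1.symm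
    obtain ⟨y, hy1, hy2, -, hy4⟩ := hc'.shift hx (h1 _ hp1 hp4) (h1 _ hq1 hq2)
    exact ⟨y, hy1, hy2, hy4 _ hc.ij.symm hp2.symm, hy4 _ hc.ik.symm hp3.symm⟩
  obtain ⟨y, hy1, hy2, hy3, hy4⟩ := key
  obtain ⟨z, hz1, hz2, hz3, hz4⟩ := hc.shift hy1 hy3 hy4
  exact ⟨z, hz1, hz2.trans hy2, by rw [hz3, hy2], hz4⟩

theorem S_conj (hm : m.Pos) (h : H) {i : B} {a : A} (ha : a ∈ S hm i) :
    m.e h i * a * (m.e h i)⁻¹ ∈ S hm (m.ρ h i) := by
  obtain ⟨x, hx, rfl, l, hl, h1⟩ := ha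
  have hρ : m.ρ (h * x * h⁻¹) = 1 := by rw [map_mul, map_mul, map_inv, hx]; group
  refine ⟨h * x * h⁻¹, hρ, ?_, m.ρ h l, fun e => hl ((m.ρ h).injective e), ?_⟩
  · rw [m.e_conj, hx, Perm.one_apply]
  · intro j h2 h3
    obtain ⟨j, rfl⟩ := (m.ρ h).surjective j
    rw [m.e_conj, hx, Perm.one_apply, h1 j (fun e => h2 (by rw [e])) (fun e => h3 (by rw [e]))]
    group

/-- **the kernel is diagonal modulo `S`** -/
theorem diag_mem (hm : m.Pos) {c : H} {i j k : B} (hc : m.P3 c i j k) {g : H} (hg : m.ρ g = 1) :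
    (m.e c i)⁻¹ * m.e g j * m.e c i * (m.e g i)⁻¹ ∈ S hm i := by
  obtain ⟨p, hp1, hp2, hp3, -⟩ := exists_fresh hm.five i j k k
  obtain ⟨q, hq1, hq2, hq3, hq4⟩ := exists_fresh hm.five i j k p
  have h1 := e_comm hg c
  have h2 := mem_S hm (ρ_comm hg c) hp1 hq1 hq4.symm
    (by rw [h1, (hc.fix p hp1 hp2 hp3).1, (hc.fix p hp1 hp2 hp3).2]; group)
    (by rw [h1, (hc.fix q hq1 hq2 hq3).1, (hc.fix q hq1 hq2 hq3).2]; group)
  rw [h1 i, hc.hi] at h2
  exact h2

/-- **pure cycles `i → j` agree modulo `S i`** -/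
theorem coset_mem (hm : m.Pos) {c c' : H} {i j k k' : B} (hc : m.P3 c i j k) (hc' : m.P3 c' i j k') :
    (m.e c' i)⁻¹ * m.e c i ∈ S hm i := by
  have key : ∀ {c c' : H}, m.P3 c i j k → m.P3 c' i j k → (m.e c' i)⁻¹ * m.e c i ∈ S hm i := by
    intro c c' hc hc'
    obtain ⟨p, hp1, hp2, hp3, -⟩ := exists_fresh hm.five i j k k
    obtain ⟨q, hq1, hq2, hq3, hq4⟩ := exists_fresh hm.five i j k p
    have h1 : m.ρ (c'⁻¹ * c) = 1 := by rw [map_mul, map_inv, hc.ρ_eq hc', inv_mul_cancel]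
    have h2 : ∀ l, l ≠ i → l ≠ j → l ≠ k → m.e (c'⁻¹ * c) l = 1 := by
      intro l h1 h2 h3
      have h4 := hc'.inv.fix l h2 h1 h3
      rw [m.mul, (hc.fix l h1 h2 h3).1, (hc.fix l h1 h2 h3).2, h4.2, one_mul]
    have h3 := mem_S hm h1 hp1 hq1 hq4.symm (h2 p hp1 hp2 hp3) (h2 q hq1 hq2 hq3)
    have h4 : m.e c'⁻¹ j = (m.e c' i)⁻¹ := by rw [← m.e_inv, hc'.hi]
    rwa [m.mul, hc.hi, h4] at h3
  by_cases hk : k' = k
  · rw [hk] at hc'
    exact key hc hc'
  · obtain ⟨l, hl1, hl2, hl3, hl4⟩ := exists_fresh hm.five i j k k'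
    obtain ⟨h, hh⟩ := hm.p3 k' k l hk hl3.symm hl4.symm
    have h1 := hh.fix i hc'.ik hc.ik hl1.symm
    have h2 := hh.fix j hc'.jk hc.jk hl2.symm
    have h3 := hc'.conj h
    rw [h1.1, h2.1, hh.hi] at h3
    have h4 := key hc h3
    have h5 := m.e_conj h c' i
    rw [h1.1, h1.2, hc'.hi, h2.2] at h5
    rw [h5] at h4
    simpa using h4

theorem Pos.gauge (hm : m.Pos) (d : B → A) : (m.gauge d).Pos :=
  ⟨hm.five, fun i j k h1 h2 h3 => by
    obtain ⟨c, hc⟩ := hm.p3 i j k h1 h2 h3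
    exact ⟨c, hc.gauge d⟩⟩

/-- a good gauge: all `S i` are equal, and the entries of the pure three-cycles lie in it -/
structure Nrm (hm : m.Pos) (A₀ : Subgroup A) : Prop where
  hS : ∀ i, S hm i = A₀
  hP : ∀ {c i j k}, m.P3 c i j k → m.e c i ∈ A₀

/-- **the good gauge** -/
theorem exists_gauge (hm : m.Pos) (b₀ : B) :
    ∃ d : B → A, d b₀ = 1 ∧ ∃ A₀ : Subgroup A, Nrm (hm.gauge d) A₀ := by
  classical
  have h1 : ∀ j, j ≠ b₀ → ∃ c k, m.P3 c b₀ j k := fun j hj => by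
    obtain ⟨k, h1, h2, -⟩ := exists_fresh hm.five b₀ j j j
    obtain ⟨c, hc⟩ := hm.p3 b₀ j k hj.symm h2.symm h1.symm
    exact ⟨c, k, hc⟩
  choose cc kk hcc using h1
  let d : B → A := fun j => if hj : j = b₀ then 1 else m.e (cc j hj) b₀
  have hd0 : d b₀ = 1 := dif_pos rfl
  have hd : ∀ j (hj : j ≠ b₀), d j = m.e (cc j hj) b₀ := fun j hj => dif_neg hj
  refine ⟨d, hd0, S (hm.gauge d) b₀, ?_⟩
  set m' := m.gauge d with hm'
  have hcc' : ∀ j (hj : j ≠ b₀), m'.P3 (cc j hj) b₀ j (kk j hj) := fun j hj => (hcc j hj).gauge d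
  have he : ∀ j (hj : j ≠ b₀), m'.e (cc j hj) b₀ = 1 := fun j hj => by
    rw [hm', gauge_e, (hcc j hj).hi, hd j hj, hd0]
    group
  have hSe : ∀ j, S (hm.gauge d) j = S (hm.gauge d) b₀ := by
    intro j
    by_cases hj : j = b₀
    · rw [hj]
    · apply le_antisymm
      · intro a ha
        have h1 := S_conj (hm.gauge d) (cc j hj)⁻¹ ha
        have h2 : m'.e (cc j hj)⁻¹ j = 1 := by
          have h3 := m'.e_inv (cc j hj) b₀
          rw [(hcc' j hj).hi, he, inv_one] at h3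
          exact h3
        have h3 : m'.ρ (cc j hj)⁻¹ j = b₀ := (hcc' j hj).inv.hi
        rw [h2, h3] at h1
        simpa using h1
      · intro a ha
        have h1 := S_conj (hm.gauge d) (cc j hj) ha
        rw [he j hj, (hcc' j hj).hi] at h1
        simpa using h1
  have hP0 : ∀ {c j k}, m'.P3 c b₀ j k → m'.e c b₀ ∈ S (hm.gauge d) b₀ := by
    intro c j k hc
    have h1 := coset_mem (hm.gauge d) hc (hcc' j hc.ij.symm)
    rw [he, inv_one, one_mul] at h1
    exact h1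
  have hP1 : ∀ {c i k}, m'.P3 c i b₀ k → m'.e c i ∈ S (hm.gauge d) b₀ := by
    intro c i k hc
    have h1 := hP0 hc.inv
    have h2 : m'.e c⁻¹ b₀ = (m'.e c i)⁻¹ := by rw [← m'.e_inv, hc.hi]
    rw [h2] at h1
    exact (Subgroup.inv_mem_iff _).1 h1
  refine ⟨hSe, ?_⟩
  intro c i j k hc
  by_cases hi : i = b₀
  · subst hi
    exact hP0 hc
  by_cases hj : j = b₀
  · subst hj
    exact hP1 hc
  obtain ⟨c'', hc''⟩ := (hm.gauge d).p3 i j b₀ hc.ij hj hi
  have h1 := hP0 hc''.rot.rot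
  have h2 := hP1 hc''.rot
  have h3 : m'.e c'' i ∈ S (hm.gauge d) b₀ := by
    have h4 := hc''.one
    have h5 : m'.e c'' i = (m'.e c'' j)⁻¹ * (m'.e c'' b₀)⁻¹ := by
      have : m'.e c'' i = (m'.e c'' b₀ * m'.e c'' j)⁻¹ := (inv_eq_of_mul_eq_one_right h4).symm
      rw [this, mul_inv_rev]
    rw [h5]
    exact mul_mem (inv_mem h2) (inv_mem h1)
  have h4 := coset_mem (hm.gauge d) hc hc''
  rw [hSe] at h4
  have h5 := mul_mem h3 h4
  rwa [mul_inv_cancel_left] at h5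

/-! ### In a good gauge -/

section good

variable {hm : m.Pos} {A₀ : Subgroup A} (N : Nrm hm A₀)

include N

theorem Nrm.conj (h : H) (i : B) {a : A} (ha : a ∈ A₀) : m.e h i * a * (m.e h i)⁻¹ ∈ A₀ := by
  have h1 := S_conj hm h (i := i) (a := a) (by rw [N.hS]; exact ha)
  rwa [N.hS] at h1

theorem Nrm.mem_ker_of {g : H} (hg : m.ρ g = 1) {i p q : B} (hp : p ≠ i) (hq : q ≠ i) (hpq : p ≠ q)
    (h1 : m.e g p = 1) (h2 : m.e g q = 1) : m.e g i ∈ A₀ := by
  rw [← N.hS i]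
  exact mem_S hm hg hp hq hpq h1 h2

/-- the kernel is diagonal modulo `A₀` -/
theorem Nrm.diag {g : H} (hg : m.ρ g = 1) (i j : B) : m.e g j * (m.e g i)⁻¹ ∈ A₀ := by
  by_cases hij : i = j
  · rw [hij, mul_inv_cancel]
    exact one_mem _
  obtain ⟨k, h1, h2, -⟩ := exists_fresh hm.five i j j j
  obtain ⟨c, hc⟩ := hm.p3 i j k hij h2.symm h1.symm
  have h3 := diag_mem hm hc hg
  rw [N.hS] at h3
  have h4 := N.hP hc
  have h5 := N.conj g j h4
  have h6 := mul_mem (mul_mem (inv_mem h5) h4) h3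
  have e1 : (m.e g j * m.e c i * (m.e g j)⁻¹)⁻¹ * m.e c i * ((m.e c i)⁻¹ * m.e g j * m.e c i * (m.e g i)⁻¹) =
      m.e g j * (m.e g i)⁻¹ := by group
  rwa [e1] at h6

/-- a kernel element supported on one block -/
theorem Nrm.exists_single (i : B) {a : A} (ha : a ∈ ⁅A₀, A₀⁆) :
    ∃ z, m.ρ z = 1 ∧ m.e z i = a ∧ ∀ j, j ≠ i → m.e z j = 1 := by
  let T : Subgroup A :=
    { carrier := {a | ∃ z, m.ρ z = 1 ∧ m.e z i = a ∧ ∀ j, j ≠ i → m.e z j = 1}
      one_mem' := ⟨1, map_one _, m.e_one i, fun j _ => m.e_one j⟩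
      mul_mem' := by
        rintro _ _ ⟨x, hx, rfl, h1⟩ ⟨y, hy, rfl, h2⟩
        exact ⟨x * y, by rw [map_mul, hx, hy, one_mul], by rw [m.mul, hy, Perm.one_apply], fun j hj => by
          rw [m.mul, hy, Perm.one_apply, h1 j hj, h2 j hj, one_mul]⟩
      inv_mem' := by
        rintro _ ⟨x, hx, rfl, h1⟩
        have hx' : ∀ j, m.e x⁻¹ j = (m.e x j)⁻¹ := fun j => by
          have := m.e_inv x j
          rwa [hx, Perm.one_apply] at this
        exact ⟨x⁻¹, by rw [map_inv, hx, inv_one], hx' i, fun j hj => by rw [hx', h1 j hj, inv_one]⟩ }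
  suffices h : ⁅A₀, A₀⁆ ≤ T from h ha
  rw [Subgroup.commutator_le]
  intro a ha b hb
  obtain ⟨p, hp, -⟩ := exists_fresh hm.five i i i i
  obtain ⟨q, hq, hq', -⟩ := exists_fresh hm.five i p p p
  obtain ⟨c, hc⟩ := hm.p3 i p q hp.symm hq'.symm hq.symm
  obtain ⟨c', hc'⟩ := hm.p3 i q p hq.symm hq' hp.symm
  obtain ⟨x, hx, hxi, -, hx1⟩ := exists_z hm hc (a := a) (by rw [N.hS]; exact ha)
  obtain ⟨y, hy, hyi, -, hy1⟩ := exists_z hm hc' (a := b) (by rw [N.hS]; exact hb)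
  have hx' : ∀ j, m.e x⁻¹ j = (m.e x j)⁻¹ := fun j => by
    have := m.e_inv x j
    rwa [hx, Perm.one_apply] at this
  have hy' : ∀ j, m.e y⁻¹ j = (m.e y j)⁻¹ := fun j => by
    have := m.e_inv y j
    rwa [hy, Perm.one_apply] at this
  have hρx : m.ρ x⁻¹ = 1 := by rw [map_inv, hx, inv_one]
  have hρy : m.ρ y⁻¹ = 1 := by rw [map_inv, hy, inv_one]
  have key : ∀ j, m.e (x * y * x⁻¹ * y⁻¹) j = ⁅m.e x j, m.e y j⁆ := by
    intro j
    rw [m.mul, m.mul, m.mul, hρy, Perm.one_apply, hρx, Perm.one_apply, hy, Perm.one_apply, hx', hy']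
    rfl
  refine ⟨x * y * x⁻¹ * y⁻¹, by rw [map_mul, map_mul, map_mul, hρx, hρy, hx, hy]; group, by rw [key, hxi, hyi], ?_⟩
  intro j hj
  rw [key]
  by_cases hjp : j = p
  · rw [hy1 j hj (by rw [hjp]; exact hq'.symm), commutatorElement_one_right]
  · rw [hx1 j hj hjp, commutatorElement_one_left]

/-- the exact elements `(a, a⁻¹)` -/
theorem Nrm.exists_pair {i l : B} (hil : i ≠ l) {a : A} (ha : a ∈ A₀) :
    ∃ z, m.ρ z = 1 ∧ m.e z i = a ∧ m.e z l = a⁻¹ ∧ ∀ j, j ≠ i → j ≠ l → m.e z j = 1 := by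
  obtain ⟨k, h1, h2, -⟩ := exists_fresh hm.five i l l l
  obtain ⟨c, hc⟩ := hm.p3 i l k hil h2.symm h1.symm
  obtain ⟨z, hz, hzi, hzl, hz1⟩ := exists_z hm hc (a := a) (by rw [N.hS]; exact ha)
  have h3 : ⁅m.e c i, a⁻¹⁆⁻¹ ∈ ⁅A₀, A₀⁆ := inv_mem (Subgroup.commutator_mem_commutator (N.hP hc) (inv_mem ha))
  obtain ⟨s, hs, hsl, hs1⟩ := N.exists_single l (a := a⁻¹ ⁻¹ * ⁅m.e c i, a⁻¹⁆⁻¹ * a⁻¹) (by
    have := (Subgroup.commutator_le.2 fun x hx y hy => mul_mem (mul_mem (mul_mem hx hy) (inv_mem hx)) (inv_mem hy) :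
      ⁅A₀, A₀⁆ ≤ A₀)
    have hn : ∀ x ∈ ⁅A₀, A₀⁆, a * x * a⁻¹ ∈ ⁅A₀, A₀⁆ := by
      intro x hx
      have e1 : a * x * a⁻¹ = ⁅a, x⁆ * x := by rw [commutatorElement_def]; group
      rw [e1]
      exact mul_mem (Subgroup.commutator_mem_commutator ha (this hx)) hx
    rw [inv_inv]
    exact hn _ h3)
  refine ⟨z * s, by rw [map_mul, hz, hs, one_mul], ?_, ?_, ?_⟩
  · rw [m.mul, hs, Perm.one_apply, hzi, hs1 i hil, mul_one]
  · rw [m.mul, hs, Perm.one_apply, hzl, hsl, commutatorElement_def]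
    group
  · intro j h4 h5
    rw [m.mul, hs, Perm.one_apply, hz1 j h4 h5, hs1 j h5, one_mul]

/-- **the kernel contains all `f : B → A₀` with product in `A₀'`** -/
theorem Nrm.exists_ker (f : B → A₀) (hf : ∏ j, Abelianization.of (f j) = 1) :
    ∃ k, m.ρ k = 1 ∧ ∀ j, m.e k j = f j := by
  classical
  have hne : Nonempty B := Fintype.card_pos_iff.1 (by have := hm.five; omega)
  let b₀ : B := hne.some
  generalize hn : (Finset.univ.filter (fun j => j ≠ b₀ ∧ f j ≠ 1)).card = n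
  induction n using Nat.strong_induction_on generalizing f with
  | _ n ih =>
    by_cases h0 : ∀ j, j ≠ b₀ → f j = 1
    · have h1 : Abelianization.of (f b₀) = 1 := by
        rw [← hf, Finset.prod_eq_single b₀]
        · intro j _ hj
          rw [h0 j hj, map_one]
        · intro h; exact absurd (Finset.mem_univ _) h
      have h2 : f b₀ ∈ commutator A₀ := (QuotientGroup.eq_one_iff _).1 h1
      have h3 : (f b₀ : A) ∈ ⁅A₀, A₀⁆ := by
        rw [← Subgroup.map_subtype_commutator]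
        exact ⟨f b₀, h2, rfl⟩
      obtain ⟨z, hz, hz1, hz2⟩ := N.exists_single b₀ h3
      refine ⟨z, hz, fun j => ?_⟩
      by_cases hj : j = b₀
      · rw [hj, hz1]
      · rw [hz2 j hj, h0 j hj]; rfl
    · push Not at h0
      obtain ⟨i, hi, hfi⟩ := h0
      let ζ : B → A₀ := fun l => if l = i then f i else if l = b₀ then (f i)⁻¹ else 1
      have hζi : ζ i = f i := if_pos rfl
      have hζ0 : ζ b₀ = (f i)⁻¹ := by
        change (if b₀ = i then f i else if b₀ = b₀ then (f i)⁻¹ else 1) = _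
        rw [if_neg hi.symm, if_pos rfl]
      have hζ1 : ∀ l, l ≠ i → l ≠ b₀ → ζ l = 1 := fun l h1 h2 => by
        change (if l = i then f i else if l = b₀ then (f i)⁻¹ else 1) = _
        rw [if_neg h1, if_neg h2]
      have hζp : ∏ l, Abelianization.of (ζ l) = 1 := by
        rw [Finset.prod_eq_mul i b₀ hi]
        · rw [hζi, hζ0, map_inv, mul_inv_cancel]
        · intro l _ hl
          rw [hζ1 l hl.1 hl.2, map_one]
        · intro h; exact absurd (Finset.mem_univ _) h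
        · intro h; exact absurd (Finset.mem_univ _) h
      obtain ⟨z, hz, hzi, hz0, hz1⟩ := N.exists_pair hi (f i).2
      have hzζ : ∀ l, m.e z l = ζ l := by
        intro l
        by_cases h1 : l = i
        · rw [h1, hzi, hζi]
        by_cases h2 : l = b₀
        · rw [h2, hz0, hζ0]; rfl
        · rw [hz1 l h1 h2, hζ1 l h1 h2]; rfl
      have hlt : (Finset.univ.filter (fun j => j ≠ b₀ ∧ (ζ j)⁻¹ * f j ≠ 1)).card < n := by
        rw [← hn]
        apply Finset.card_lt_card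
        rw [Finset.ssubset_iff_of_subset]
        · refine ⟨i, by simp [hi, hfi], ?_⟩
          simp [hζi]
        · intro l
          simp only [Finset.mem_filter, Finset.mem_univ, true_and]
          rintro ⟨h1, h2⟩
          refine ⟨h1, ?_⟩
          by_cases h3 : l = i
          · rw [h3]; exact hfi
          · rw [hζ1 l h3 h1, inv_one, one_mul] at h2
            exact h2
      obtain ⟨k, hk, hk1⟩ := ih _ hlt (fun l => (ζ l)⁻¹ * f l) (by
        simp only [map_mul, map_inv, Finset.prod_mul_distrib, Finset.prod_inv_distrib, hζp, hf, inv_one, one_mul]) rfl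
      refine ⟨z * k, by rw [map_mul, hz, hk, one_mul], fun l => ?_⟩
      rw [m.mul, hk, Perm.one_apply, hzζ, hk1, ← Subgroup.coe_mul]
      congr 1
      rw [mul_inv_cancel_left]

/-- a pure three-cycle can be made exact -/
theorem Nrm.exists_exact {i j k : B} (hij : i ≠ j) (hjk : j ≠ k) (hik : i ≠ k) :
    ∃ c, m.P3 c i j k ∧ ∀ l, m.e c l = 1 := by
  obtain ⟨c, hc⟩ := hm.p3 i j k hij hjk hik
  have h1 := N.hP hc
  have h2 := N.hP hc.rot
  have h3 := N.hP hc.rot.rot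
  let f : B → A₀ := fun l => if l = j then ⟨m.e c i, h1⟩⁻¹ else if l = k then ⟨m.e c j, h2⟩⁻¹ else
    if l = i then ⟨m.e c k, h3⟩⁻¹ else 1
  have hfj : f j = ⟨m.e c i, h1⟩⁻¹ := if_pos rfl
  have hfk : f k = ⟨m.e c j, h2⟩⁻¹ := by
    change (if k = j then _ else _) = _
    rw [if_neg hjk.symm, if_pos rfl]
  have hfi : f i = ⟨m.e c k, h3⟩⁻¹ := by
    change (if i = j then _ else _) = _
    rw [if_neg hij, if_neg hik, if_pos rfl]
  have hf1 : ∀ l, l ≠ i → l ≠ j → l ≠ k → f l = 1 := fun l h4 h5 h6 => by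
    change (if l = j then _ else _) = _
    rw [if_neg h5, if_neg h6, if_neg h4]
  obtain ⟨g, hg, hg1⟩ := N.exists_ker f (by
    have e1 : ∏ l, Abelianization.of (f l) = ∏ l ∈ ({i, j, k} : Finset B), Abelianization.of (f l) := by
      symm
      apply Finset.prod_subset (Finset.subset_univ _)
      intro l _ hl
      simp only [Finset.mem_insert, Finset.mem_singleton, not_or] at hl
      rw [hf1 l hl.1 hl.2.1 hl.2.2, map_one]
    rw [e1, Finset.prod_insert (by simp [hij, hik]), Finset.prod_insert (by simp [hjk]), Finset.prod_singleton, hfi,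
      hfj, hfk, ← map_mul, ← map_mul]
    have e2 : (⟨m.e c k, h3⟩ : A₀) * ⟨m.e c j, h2⟩ * ⟨m.e c i, h1⟩ = 1 := Subtype.ext hc.one
    rw [map_mul, map_mul, map_inv, map_inv, map_inv, ← mul_inv, ← mul_inv, inv_eq_one]
    have e3 := congrArg Abelianization.of e2
    rw [map_mul, map_mul, map_one] at e3
    rw [← e3]
    simp only [mul_comm, mul_left_comm])
  have hρ : m.ρ (g * c) = m.ρ c := by rw [map_mul, hg, one_mul]
  have hex : ∀ l, m.e (g * c) l = 1 := by
    intro l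
    rw [m.mul, hg1]
    by_cases h4 : l = i
    · rw [h4, hc.hi, hfj, Subgroup.coe_inv, inv_mul_cancel]
    by_cases h5 : l = j
    · rw [h5, hc.hj, hfk, Subgroup.coe_inv, inv_mul_cancel]
    by_cases h6 : l = k
    · rw [h6, hc.hk, hfi, Subgroup.coe_inv, inv_mul_cancel]
    · rw [(hc.fix l h4 h5 h6).1, (hc.fix l h4 h5 h6).2, hf1 l h4 h5 h6]
      simp
  refine ⟨g * c, ⟨hij, hjk, hik, by rw [hρ, hc.hi], by rw [hρ, hc.hj], by rw [hρ, hc.hk], fun l h4 h5 h6 => ?_, ?_⟩, hex⟩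
  · rw [hρ]
    exact ⟨(hc.fix l h4 h5 h6).1, hex l⟩
  · rw [hex, hex, hex, one_mul, one_mul]

/-- **pure `A_n`** -/
theorem Nrm.exists_pure {σ : Perm B} (hσ : σ ∈ alternatingGroup B) : ∃ x, m.ρ x = σ ∧ ∀ l, m.e x l = 1 := by
  let T : Subgroup (Perm B) :=
    { carrier := {σ | ∃ x, m.ρ x = σ ∧ ∀ l, m.e x l = 1}
      one_mem' := ⟨1, map_one _, fun l => m.e_one l⟩
      mul_mem' := by
        rintro _ _ ⟨x, rfl, h1⟩ ⟨y, rfl, h2⟩
        exact ⟨x * y, map_mul _ _ _, fun l => by rw [m.mul, h1, h2, one_mul]⟩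
      inv_mem' := by
        rintro _ ⟨x, rfl, h1⟩
        exact ⟨x⁻¹, map_inv _ _, fun l => by rw [m.e_inv', h1, inv_one]⟩ }
  suffices h : alternatingGroup B ≤ T from h hσ
  rw [← Perm.closure_three_cycles_eq_alternating, Subgroup.closure_le]
  intro τ hτ
  have h3 : τ.support.card = 3 := Perm.IsThreeCycle.card_support hτ
  obtain ⟨i, hi⟩ : τ.support.Nonempty := Finset.card_pos.1 (by omega)
  have hi' : τ i ≠ i := Perm.mem_support.1 hi
  have h33 : τ (τ (τ i)) = i := by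
    have h4 : τ ^ 3 = 1 := by rw [← Perm.IsThreeCycle.orderOf hτ, pow_orderOf_eq_one]
    have h5 := congrArg (fun s : Perm B => s i) h4
    simpa [pow_succ] using h5
  have hij : i ≠ τ i := hi'.symm
  have hjk : τ i ≠ τ (τ i) := fun h => hij (τ.injective h)
  have hik : i ≠ τ (τ i) := fun h => by
    have h4 : τ i = i := by
      have := congrArg τ h
      rw [h33] at this
      exact this
    exact hi' h4
  have hsup : τ.support = {i, τ i, τ (τ i)} := by
    symm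
    apply Finset.eq_of_subset_of_card_le
    · intro l
      simp only [Finset.mem_insert, Finset.mem_singleton]
      rintro (rfl | rfl | rfl)
      · exact hi
      · exact Perm.apply_mem_support.2 hi
      · exact Perm.apply_mem_support.2 (Perm.apply_mem_support.2 hi)
    · rw [h3, Finset.card_insert_of_notMem (by simp [hij, hik]), Finset.card_insert_of_notMem (by simp [hjk]),
        Finset.card_singleton]
  obtain ⟨c, hc, hc1⟩ := N.exists_exact hij hjk hik
  refine ⟨c, ?_, hc1⟩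
  ext l
  by_cases h4 : l = i
  · rw [h4, hc.hi]
  by_cases h5 : l = τ i
  · rw [h5, hc.hj]
  by_cases h6 : l = τ (τ i)
  · rw [h6, hc.hk, h33]
  · rw [(hc.fix l h4 h5 h6).1]
    have h7 : l ∉ τ.support := by
      rw [hsup]
      simp [h4, h5, h6]
    exact (Perm.notMem_support.1 h7).symm

/-- modulo `A₀` all entries of an element agree -/
theorem Nrm.diag' (hρ : m.ρ.range ≤ alternatingGroup B) (h : H) (i j : B) : m.e h j * (m.e h i)⁻¹ ∈ A₀ := by
  obtain ⟨x, hx, hx1⟩ := N.exists_pure (hρ ⟨h, rfl⟩)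
  have h1 : m.ρ (h * x⁻¹) = 1 := by rw [map_mul, map_inv, hx, mul_inv_cancel]
  have h2 : ∀ l, m.e h l = m.e (h * x⁻¹) (m.ρ h l) := by
    intro l
    have h3 : h = (h * x⁻¹) * x := by group
    conv_lhs => rw [h3]
    rw [m.mul, hx1, mul_one, hx]
  rw [h2, h2 i]
  exact N.diag h1 _ _

/-- **all entries lie in `A₀`** -/
theorem Nrm.all_mem (hρ : m.ρ.range ≤ alternatingGroup B)
    (hmax : ∀ M : Subgroup H, M.Normal → M ≠ ⊤ → M ≤ m.ρ.ker) (x : H) (j : B) : m.e x j ∈ A₀ := by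
  let M : Subgroup H :=
    { carrier := {x | ∀ j, m.e x j ∈ A₀}
      one_mem' := fun j => by rw [m.e_one]; exact one_mem _
      mul_mem' := fun {x y} hx hy j => by rw [m.mul]; exact mul_mem (hx _) (hy _)
      inv_mem' := fun {x} hx j => by rw [m.e_inv']; exact inv_mem (hx _) }
  have hM : M.Normal := ⟨fun x hx h j => by
    obtain ⟨j, rfl⟩ := (m.ρ h).surjective j
    rw [m.e_conj]
    have h1 := N.conj h (m.ρ x j) (hx j)
    have h2 := N.diag' hρ h j (m.ρ x j)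
    have h3 := mul_mem h1 h2
    have e1 : m.e h (m.ρ x j) * m.e x j * (m.e h (m.ρ x j))⁻¹ * (m.e h (m.ρ x j) * (m.e h j)⁻¹) =
        m.e h (m.ρ x j) * m.e x j * (m.e h j)⁻¹ := by group
    rwa [e1] at h3⟩
  have htop : M = ⊤ := by
    by_contra hne
    have h1 := hmax M hM hne
    have hne : Nonempty B := Fintype.card_pos_iff.1 (by have := hm.five; omega)
    obtain ⟨i⟩ := hne
    obtain ⟨j, hj, -⟩ := exists_fresh hm.five i i i i
    obtain ⟨k, hk1, hk2, -⟩ := exists_fresh hm.five i j j j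
    obtain ⟨c, hc, hc1⟩ := N.exists_exact hj.symm hk2.symm hk1.symm
    have h2 : c ∈ M := fun l => by rw [hc1]; exact one_mem _
    have h3 : m.ρ c = 1 := MonoidHom.mem_ker.1 (h1 h2)
    have h4 := hc.hi
    rw [h3, Perm.one_apply] at h4
    exact hj h4.symm
  have h1 : x ∈ M := by rw [htop]; exact Subgroup.mem_top x
  exact h1 j

end good

/-- **Main theorem.** -/
theorem main (m : Mono H B A) (h5 : 5 ≤ Fintype.card B) (hρ : m.ρ.range = alternatingGroup B)
    (hperf : commutator H = ⊤) (hmax : ∀ M : Subgroup H, M.Normal → M ≠ ⊤ → M ≤ m.ρ.ker) {c : H} {i j k : B}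
    (hc : m.P3 c i j k) (b₀ : B) :
    ∃ (d : B → A) (L : Subgroup A), d b₀ = 1 ∧ (∀ x j, (m.gauge d).e x j ∈ L) ∧
      (∀ σ ∈ alternatingGroup B, ∃ x, m.ρ x = σ ∧ ∀ j, (m.gauge d).e x j = 1) ∧
      (∀ f : B → L, (∃ k, m.ρ k = 1 ∧ ∀ j, (m.gauge d).e k j = f j) ↔ ∏ j, Abelianization.of (f j) = 1) := by
  have hm : m.Pos := ⟨h5, fun i' j' k' h1 h2 h3 => exists_P3 h5 hρ.ge hc h1 h2 h3⟩
  obtain ⟨d, hd, L, N⟩ := exists_gauge hm b₀
  have hall := N.all_mem hρ.le hmax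
  refine ⟨d, L, hd, hall, fun σ hσ => N.exists_pure hσ, fun f => ⟨?_, N.exists_ker f⟩⟩
  -- the product map is a homomorphism
  let τ : H →* Abelianization L :=
    { toFun := fun x => ∏ j, Abelianization.of (⟨(m.gauge d).e x j, hall x j⟩ : L)
      map_one' := by
        refine Finset.prod_eq_one fun j _ => ?_
        have : (⟨(m.gauge d).e 1 j, hall 1 j⟩ : L) = 1 := Subtype.ext ((m.gauge d).e_one j)
        rw [this, map_one]
      map_mul' := fun x y => by
        have h1 : ∀ j, (⟨(m.gauge d).e (x * y) j, hall (x * y) j⟩ : L) =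
            ⟨(m.gauge d).e x (m.ρ y j), hall x _⟩ * ⟨(m.gauge d).e y j, hall y j⟩ :=
          fun j => Subtype.ext ((m.gauge d).mul x y j)
        simp only [h1, map_mul, Finset.prod_mul_distrib]
        congr 1
        exact Equiv.prod_comp (m.ρ y) (fun j => Abelianization.of (⟨(m.gauge d).e x j, hall x j⟩ : L)) }
  have hτ : ∀ x, τ x = 1 := by
    intro x
    have h1 : commutator H ≤ τ.ker := Abelianization.commutator_subset_ker τ
    rw [hperf] at h1
    exact h1 (Subgroup.mem_top x)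
  rintro ⟨k, -, hk⟩
  have h1 := hτ k
  change ∏ j, Abelianization.of (⟨(m.gauge d).e k j, hall k j⟩ : L) = 1 at h1
  rw [← h1]
  refine Finset.prod_congr rfl fun j _ => ?_
  congr 1
  exact Subtype.ext (hk j).symm

/-! ### From elements that are trivial on the fixed blocks to pure three-cycles -/

/-- `x` is trivial on the block `j` -/
def Triv (m : Mono H B A) (x : H) (j : B) : Prop := m.ρ x j = j ∧ m.e x j = 1

theorem Triv.inv {x : H} {j : B} (h : m.Triv x j) : m.Triv x⁻¹ j := by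
  constructor
  · nth_rewrite 1 [← h.1]
    exact m.ρ_inv_apply x j
  · have h2 := m.e_inv x j
    rw [h.1, h.2, inv_one] at h2
    exact h2

/-- **the commutator of two elements whose supports share exactly one block** -/
theorem P3.of_comm {x y : H} {b : B} (hx : m.ρ x b ≠ b) (hy : m.ρ y b ≠ b)
    (h : ∀ j, j ≠ b → m.Triv x j ∨ m.Triv y j) : m.P3 (x * y * x⁻¹ * y⁻¹) b (m.ρ x b) (m.ρ y b) := by
  -- moved blocks
  have hxm : ∀ j, j ≠ b → m.ρ x j ≠ j → m.Triv y j := fun j hj hm => (h j hj).resolve_left fun h1 => hm h1.1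
  have hym : ∀ j, j ≠ b → m.ρ y j ≠ j → m.Triv x j := fun j hj hm => (h j hj).resolve_right fun h1 => hm h1.1
  set xb := m.ρ x b with hxb
  set yb := m.ρ y b with hyb
  have t1 : m.Triv y xb := hxm xb hx fun e => hx ((m.ρ x).injective e)
  have t2 : m.Triv x yb := hym yb hy fun e => hy ((m.ρ y).injective e)
  set x' := m.ρ x⁻¹ b with hx'
  set y' := m.ρ y⁻¹ b with hy'
  have ex' : m.ρ x x' = b := m.ρ_apply_inv x b
  have ey' : m.ρ y y' = b := m.ρ_apply_inv y b
  have nx' : x' ≠ b := fun e => hx (by rw [hxb, ← e, ex', e])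
  have ny' : y' ≠ b := fun e => hy (by rw [hyb, ← e, ey', e])
  have t3 : m.Triv y x' := hxm x' nx' (by rw [ex']; exact nx'.symm)
  have t4 : m.Triv x y' := hym y' ny' (by rw [ey']; exact ny'.symm)
  have exy : xb ≠ yb := by
    intro e
    have h1 := t1.1
    rw [e] at h1
    exact hy ((m.ρ y).injective h1)
  have hρ : ∀ l, m.ρ (x * y * x⁻¹ * y⁻¹) l = m.ρ x (m.ρ y (m.ρ x⁻¹ (m.ρ y⁻¹ l))) := fun l => by
    rw [map_mul, map_mul, map_mul]; rfl
  have he : ∀ l, m.e (x * y * x⁻¹ * y⁻¹) l =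
      m.e x (m.ρ y (m.ρ x⁻¹ (m.ρ y⁻¹ l))) * m.e y (m.ρ x⁻¹ (m.ρ y⁻¹ l)) * m.e x⁻¹ (m.ρ y⁻¹ l) * m.e y⁻¹ l :=
    fun l => by rw [m.mul, m.mul, m.mul]
  have ixb : m.ρ x⁻¹ xb = b := m.ρ_inv_apply x b
  have iyb : m.ρ y⁻¹ yb = b := m.ρ_inv_apply y b
  have a1 : m.ρ (x * y * x⁻¹ * y⁻¹) b = xb ∧ m.e (x * y * x⁻¹ * y⁻¹) b = m.e x b := by
    rw [hρ, he, ← hy', t4.inv.1, t4.inv.2, ey']
    refine ⟨rfl, ?_⟩
    have h1 : m.e y⁻¹ b = (m.e y y')⁻¹ := by rw [m.e_inv' y b]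
    rw [h1]
    group
  have a2 : m.ρ (x * y * x⁻¹ * y⁻¹) xb = yb ∧ m.e (x * y * x⁻¹ * y⁻¹) xb = m.e y b * (m.e x b)⁻¹ := by
    rw [hρ, he, t1.inv.1, t1.inv.2, ixb, ← hyb, t2.1, t2.2]
    refine ⟨rfl, ?_⟩
    have h1 : m.e x⁻¹ xb = (m.e x b)⁻¹ := m.e_inv x b
    rw [h1]
    group
  have a3 : m.ρ (x * y * x⁻¹ * y⁻¹) yb = b ∧ m.e (x * y * x⁻¹ * y⁻¹) yb = (m.e y b)⁻¹ := by
    rw [hρ, he, iyb, ← hx', t3.1, t3.2, ex']
    refine ⟨rfl, ?_⟩
    have h1 : m.e y⁻¹ yb = (m.e y b)⁻¹ := m.e_inv y b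
    have h2 : m.e x⁻¹ b = (m.e x x')⁻¹ := by rw [m.e_inv' x b]
    rw [h1, h2]
    group
  refine ⟨hx.symm, exy, hy.symm, a1.1, a2.1, a3.1, fun l h1 h2 h3 => ?_, ?_⟩
  · rw [hρ, he]
    by_cases hyl : m.ρ y l = l
    · -- `y` fixes `l`
      by_cases hxl : m.ρ x l = l
      · -- both fix `l`
        have iy : m.ρ y⁻¹ l = l := by nth_rewrite 1 [← hyl]; exact m.ρ_inv_apply y l
        have ix : m.ρ x⁻¹ l = l := by nth_rewrite 1 [← hxl]; exact m.ρ_inv_apply x l
        have ey : m.e y⁻¹ l = (m.e y l)⁻¹ := by rw [m.e_inv', iy]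
        have ex : m.e x⁻¹ l = (m.e x l)⁻¹ := by rw [m.e_inv', ix]
        rw [iy, ix, hyl, hxl, ey, ex]
        refine ⟨rfl, ?_⟩
        rcases h l h1 with h4 | h4
        · rw [h4.2]; group
        · rw [h4.2]; group
      · have t := hxm l h1 hxl
        rw [t.inv.1, t.inv.2]
        set l' := m.ρ x⁻¹ l with hl'
        have el' : m.ρ x l' = l := m.ρ_apply_inv x l
        have nl' : l' ≠ b := fun e => h2 (by rw [hxb, ← e, el'])
        have t' : m.Triv y l' := hxm l' nl' fun e => hxl (by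
          have e2 : l = l' := el'.symm.trans e
          rw [e2]
          exact e)
        have ex : m.e x⁻¹ l = (m.e x l')⁻¹ := by rw [m.e_inv' x l]
        rw [t'.1, t'.2, el', ex]
        exact ⟨rfl, by group⟩
    · have t := hym l h1 hyl
      set l' := m.ρ y⁻¹ l with hl'
      have el' : m.ρ y l' = l := m.ρ_apply_inv y l
      have nl' : l' ≠ b := fun e => h3 (by rw [hyb, ← e, el'])
      have t' : m.Triv x l' := hym l' nl' fun e => hyl (by
        have e2 : l = l' := el'.symm.trans e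
        rw [e2]
        exact e)
      have ey : m.e y⁻¹ l = (m.e y l')⁻¹ := by rw [m.e_inv' y l]
      rw [t'.inv.1, t'.inv.2, el', t.1, t.2, ey]
      exact ⟨rfl, by group⟩
  · rw [a1.2, a2.2, a3.2]
    group

/-- two finite sets of the same size at least two are conjugate under the alternating group -/
theorem exists_even_map {s t : Finset B} (h : s.card = t.card) (h2 : 2 ≤ s.card) :
    ∃ σ : Perm B, Perm.sign σ = 1 ∧ ∀ j, σ j ∈ t ↔ j ∈ s := by
  have e : {x // x ∈ s} ≃ {x // x ∈ t} := Finset.equivOfCardEq h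
  let σ : Perm B := e.extendSubtype
  have hσ : ∀ j, σ j ∈ t ↔ j ∈ s := fun j => by
    constructor
    · intro h1
      by_contra hcon
      exact e.extendSubtype_not_mem j hcon h1
    · intro h1
      exact e.extendSubtype_mem j h1
  rcases Int.units_eq_one_or (Perm.sign σ) with hs | hs
  · exact ⟨σ, hs, hσ⟩
  · obtain ⟨u, hu, v, hv, huv⟩ := Finset.one_lt_card.1 (by rw [← h]; omega : 1 < t.card)
    refine ⟨swap u v * σ, by rw [map_mul, Perm.sign_swap huv, hs]; rfl, fun j => ?_⟩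
    rw [Perm.mul_apply, ← hσ j]
    by_cases h3 : σ j = u
    · rw [h3, swap_apply_left]
      exact ⟨fun _ => hu, fun _ => hv⟩
    by_cases h4 : σ j = v
    · rw [h4, swap_apply_right]
      exact ⟨fun _ => hv, fun _ => hu⟩
    · rw [swap_apply_of_ne_of_ne h3 h4]

/-- **an element that is trivial on the blocks it fixes gives a pure three-cycle** -/
theorem exists_P3_of_pure (hA : alternatingGroup B ≤ m.ρ.range) {x : H} (hx1 : m.ρ x ≠ 1)
    (hx : ∀ j, m.ρ x j = j → m.e x j = 1) (hn : 2 * (m.ρ x).support.card ≤ Fintype.card B + 1) :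
    ∃ c i j k, m.P3 c i j k := by
  classical
  set Δ := (m.ρ x).support with hΔ
  have hΔ2 : 2 ≤ Δ.card := Perm.two_le_card_support_of_ne_one hx1
  obtain ⟨b, hb⟩ : Δ.Nonempty := Finset.card_pos.1 (by omega)
  have h1 : Δ.card - 1 ≤ Δᶜ.card := by
    rw [Finset.card_compl]
    omega
  obtain ⟨Γ, hΓ, hΓc⟩ := Finset.exists_subset_card_eq h1
  have hbΓ : b ∉ Γ := fun h => by
    have := hΓ h
    rw [Finset.mem_compl] at this
    exact this hb
  obtain ⟨σ, hs, hσ⟩ := exists_even_map (s := Δ) (t := insert b Γ) (by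
    rw [Finset.card_insert_of_notMem hbΓ, hΓc]
    omega) hΔ2
  obtain ⟨h, hh⟩ := hA (Perm.mem_alternatingGroup.2 hs)
  have hmov : ∀ j, m.ρ (h * x * h⁻¹) (σ j) ≠ σ j ↔ j ∈ Δ := by
    intro j
    rw [hΔ, Perm.mem_support, ← hh, m.ρ_conj]
    exact (m.ρ h).injective.ne_iff
  have htr : ∀ j, σ j ∉ insert b Γ → m.Triv (h * x * h⁻¹) (σ j) := by
    intro j hj
    rw [hσ] at hj
    have h2 : m.ρ x j = j := Perm.notMem_support.1 hj
    rw [← hh]
    refine ⟨by rw [m.ρ_conj, h2], ?_⟩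
    rw [m.e_conj, h2, hx j h2]
    group
  refine ⟨_, _, _, _, P3.of_comm (x := x) (y := h * x * h⁻¹) (b := b) (Perm.mem_support.1 hb) ?_ ?_⟩
  · obtain ⟨j, hj⟩ := σ.surjective b
    rw [← hj]
    exact (hmov j).2 ((hσ j).1 (by rw [hj]; exact Finset.mem_insert_self _ _))
  · intro l hl
    by_cases h2 : l ∈ Δ
    · right
      obtain ⟨j, rfl⟩ := σ.surjective l
      apply htr
      intro h3
      rcases Finset.mem_insert.1 h3 with h4 | h4
      · exact hl h4
      · have := hΓ h4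
        rw [Finset.mem_compl] at this
        exact this h2
    · left
      have h3 : m.ρ x l = l := Perm.notMem_support.1 h2
      exact ⟨h3, hx l h3⟩

end Mono

end Cfsg.Agent.H930.IP
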